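import Cfsg.Agent.H585.BD.Dl
import Cfsg.Agent.H755.Dl.Lin
import Cfsg.Agent.S0245
import Cfsg.Agent.S0286
import Cfsg.Agent.S0287
import Cfsg.Agent.S0288
import Cfsg.Agent.S0289
import Cfsg.Agent.S0277
import Cfsg.Prelude.Def_LieClassical

/-!
# Derived lengths of the Sylow `p`-subgroups of the classical groups, `p` odd, coprime characteristic, weight `< p ^ 2`
(helper510, for S4932)
-/

set_option autoImplicit false
set_option linter.unusedSectionVars false
set_option linter.unusedVariables false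

namespace Cfsg.Agent.H510.BD

open Cfsg Matrix Cfsg.Agent.H246.Dl Cfsg.Agent.H585.BD

section gen

variable {p d : ℕ} [hp : Fact p.Prime] {G H S : Type*} [Group G] [Group H] [Group S]

theorem pd_of (h : DlLe p d G) (Q : Subgroup G) (hQ : IsPGroup p Q) : derivedSeries ↥Q d = ⊥ :=
  (derivedSeries_eq_bot_iff Q d).2 (dS_of_dlLe h hQ)

theorem dlLe_inj (f : H →* G) (hf : Function.Injective f) (h : DlLe p d G) : DlLe p d H :=
  DlLe.of_hom f (fun g hg _ => hf (by rw [hg, map_one])) (pd_of h)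

theorem dlLe_surj [Finite G] (f : G →* S) (hf : Function.Surjective f) (h : DlLe p d G) : DlLe p d S :=
  Cfsg.Agent.H755.Dl.DlLe_of_surjective hf (pd_of h)

/-- a subgroup of index prime to `p` -/
theorem dlLe_card [Finite G] (f : H →* G) (hf : Function.Injective f) {c : ℕ} (hc : ¬ p ∣ c)
    (hcard : Nat.card G ∣ Nat.card H * c) (h : DlLe p d H) : DlLe p d G := by
  have hfin : Finite H := Finite.of_injective f hf
  rw [dlLe_iff]
  intro P
  obtain ⟨P₀⟩ : Nonempty (Sylow p H) := inferInstance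
  have hQ : IsPGroup p ((P₀ : Subgroup H).map f) := P₀.isPGroup'.map f
  obtain ⟨S1, hS1⟩ := hQ.exists_le_sylow
  have hcQ : Nat.card ((P₀ : Subgroup H).map f) = p ^ (Nat.card H).factorization p := by
    rw [← Nat.card_congr ((P₀ : Subgroup H).equivMapOfInjective f hf).toEquiv, P₀.card_eq_multiplicity]
  have hdv : p ^ (Nat.card G).factorization p ∣ Nat.card H := by
    have h1 : p ^ (Nat.card G).factorization p ∣ Nat.card H * c := (Nat.ordProj_dvd _ _).trans hcard
    exact (Nat.Coprime.pow_left _ ((Nat.Prime.coprime_iff_not_dvd hp.out).2 hc)).dvd_of_dvd_mul_right h1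
  have hle : (Nat.card G).factorization p ≤ (Nat.card H).factorization p :=
    (hp.out.pow_dvd_iff_le_factorization Nat.card_pos.ne').1 hdv
  have heq : (P₀ : Subgroup H).map f = S1 := by
    apply Subgroup.eq_of_le_of_card_ge hS1
    rw [hcQ, S1.card_eq_multiplicity]
    exact Nat.pow_le_pow_right hp.out.pos hle
  obtain ⟨g, hg⟩ := MulAction.exists_smul_eq G P S1
  rw [dS_eq_bot_of_inj (MulAut.conj g).toMonoidHom (MulAut.conj g).injective]
  have h2 : (P : Subgroup G).map (MulAut.conj g).toMonoidHom = (S1 : Subgroup G) := by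
    rw [← hg]
    rfl
  rw [h2, ← heq, ← dS_map, (derivedSeries_eq_bot_iff _ _).1 (h P₀), Subgroup.map_bot]

end gen

section arith

variable {p q : ℕ} [hp : Fact p.Prime]

theorem cast_ne (hpq : ¬ p ∣ q) : (q : ZMod p) ≠ 0 := fun h => hpq ((ZMod.natCast_eq_zero_iff _ _).1 h)

theorem ord_pos (hpq : ¬ p ∣ q) : 0 < orderOf (q : ZMod p) :=
  Nat.pos_of_dvd_of_pos (ZMod.orderOf_dvd_card_sub_one (cast_ne hpq)) (by have := hp.out.two_le; omega)

theorem ord_le (hpq : ¬ p ∣ q) {k : ℕ} (hk : 0 < k) (h : p ∣ q ^ k - 1) : orderOf (q : ZMod p) ≤ k := by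
  apply Nat.le_of_dvd hk
  apply orderOf_dvd_of_pow_eq_one
  have hq : 0 < q := by
    rcases Nat.eq_zero_or_pos q with rfl | h
    · exact absurd (dvd_zero p) hpq
    · exact h
  have h1 : 1 ≤ q ^ k := Nat.one_le_pow _ _ hq
  have h2 : ((q ^ k - 1 : ℕ) : ZMod p) = 0 := (ZMod.natCast_eq_zero_iff _ _).2 h
  rw [Nat.cast_sub h1, sub_eq_zero] at h2
  push_cast at h2
  exact h2

/-- `q ^ j ≠ - 1` if `q` has odd order -/
theorem not_dvd_add_one (hp2 : p ≠ 2) (ho : Odd (orderOf (q : ZMod p))) (j : ℕ) : ¬ p ∣ q ^ j + 1 := by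
  intro h
  have h1 : ((q ^ j + 1 : ℕ) : ZMod p) = 0 := (ZMod.natCast_eq_zero_iff _ _).2 h
  push_cast at h1
  have h2 : (q : ZMod p) ^ j = -1 := eq_neg_of_add_eq_zero_left h1
  have h3 : ((q : ZMod p) ^ j) ^ orderOf (q : ZMod p) = 1 := by
    rw [← pow_mul, mul_comm, pow_mul, pow_orderOf_eq_one, one_pow]
  rw [h2, ho.neg_one_pow] at h3
  have : Fact (2 < p) := ⟨by have := hp.out.two_le; omega⟩
  exact ZMod.neg_one_ne_one h3

theorem sq_sub (q j : ℕ) : q ^ (2 * j) - 1 = (q ^ j - 1) * (q ^ j + 1) := by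
  rw [mul_comm 2, pow_mul, mul_comm, ← Nat.sq_sub_sq, one_pow]

end arith

section linear

variable {p : ℕ} [hp : Fact p.Prime] {F : Type*} [Field F] [Fintype F]

theorem natCast_ne (hpF : ¬ p ∣ Fintype.card F) : (p : F) ≠ 0 := by
  intro h
  obtain ⟨r, hr⟩ := CharP.exists F
  have hP : r.Prime := CharP.char_is_prime F r
  have h1 : r ∣ p := (CharP.cast_eq_zero_iff F r p).1 h
  have h2 : r = p := (Nat.prime_dvd_prime_iff_eq hP hp.out).1 h1
  subst h2
  have := Fact.mk hP
  obtain ⟨n, -, hn⟩ := FiniteField.card F r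
  rw [hn] at hpF
  exact hpF (dvd_pow_self r n.ne_zero)

/-- the linear groups -/
theorem dlLe_gl {ι : Type*} [Fintype ι] [DecidableEq ι] (hpF : ¬ p ∣ Fintype.card F)
    (hw : Fintype.card ι / orderOf (Fintype.card F : ZMod p) < p ^ 2) : DlLe p 2 (GL ι F) := by
  have hfin : Finite (GL ι F) := inferInstance
  intro P
  let e : Matrix ι ι F ≃ₐ[F] Matrix (Fin (Fintype.card ι)) (Fin (Fintype.card ι)) F :=
    reindexAlgEquiv F F (Fintype.equivFin ι)
  let ρ : GL ι F →* GL (Fin (Fintype.card ι)) F := (Units.mapEquiv e.toMulEquiv).toMonoidHom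
  have hρ : Function.Injective ρ := (Units.mapEquiv e.toMulEquiv).injective
  have h1 := Cfsg.Agent.H755.Dl.ne_ord P.isPGroup' (natCast_ne hpF) (ord_pos hpF)
    (fun k hk h => ord_le hpF hk (by rwa [Nat.card_eq_fintype_card] at h))
    (ρ := ρ.comp (P : Subgroup (GL ι F)).subtype) (hρ.comp (Subgroup.subtype_injective _))
  refine derivedSeries_eq_bot_mono ?_ h1
  have h2 := Nat.log_lt_of_lt_pow' (b := p) (x := 2) (by norm_num) hw
  omega

/-- groups of matrices -/
theorem dlLe_mat {ι : Type*} [Fintype ι] [DecidableEq ι] (hpF : ¬ p ∣ Fintype.card F)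
    (hw : Fintype.card ι / orderOf (Fintype.card F : ZMod p) < p ^ 2) {X : Type*} [Group X] (f : X →* Matrix ι ι F)
    (hf : Function.Injective f) : DlLe p 2 X :=
  dlLe_inj f.toHomUnits (fun a b h => hf (congrArg Units.val h)) (dlLe_gl hpF hw)

theorem card_gl_dvd (n : ℕ) : ∏ i ∈ Finset.range n, (Fintype.card F ^ (i + 1) - 1) ∣ Nat.card (GL (Fin n) F) := by
  rw [card_GL_field, Finset.prod_range, ← Finset.prod_range (fun i => Fintype.card F ^ n - Fintype.card F ^ i),
    ← Finset.prod_range (fun i => Fintype.card F ^ (i + 1) - 1),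
    ← Finset.prod_range_reflect (fun i => Fintype.card F ^ (i + 1) - 1)]
  apply Finset.prod_dvd_prod_of_dvd
  intro i hi
  rw [Finset.mem_range] at hi
  have h1 : n - 1 - i + 1 = n - i := by omega
  have h2 : Fintype.card F ^ n - Fintype.card F ^ i = Fintype.card F ^ i * (Fintype.card F ^ (n - i) - 1) := by
    rw [Nat.mul_sub, mul_one, ← pow_add]
    congr 2
    omega
  rw [h1, h2]
  exact dvd_mul_left _ _

end linear

section hyp

variable {F : Type*} [Field F]

/-- `GL_m → Sp_{2m}, O^+_{2m}` -/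
def hyp (m : ℕ) (F : Type*) [Field F] : GL (Fin m) F →* Matrix (Fin m ⊕ Fin m) (Fin m ⊕ Fin m) F where
  toFun A := fromBlocks A.1 0 0 (A⁻¹).1ᵀ
  map_one' := by
    rw [inv_one]
    change fromBlocks (1 : Matrix (Fin m) (Fin m) F) 0 0 (1 : Matrix (Fin m) (Fin m) F)ᵀ = 1
    rw [transpose_one, fromBlocks_one]
  map_mul' A B := by
    rw [_root_.mul_inv_rev]
    change fromBlocks (A.1 * B.1) 0 0 ((B⁻¹).1 * (A⁻¹).1)ᵀ = fromBlocks A.1 0 0 (A⁻¹).1ᵀ * fromBlocks B.1 0 0 (B⁻¹).1ᵀ
    rw [fromBlocks_multiply, transpose_mul]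
    simp

theorem hyp_injective (m : ℕ) : Function.Injective (hyp m F) := fun _ _ h => Units.ext (fromBlocks_inj.1 h).1

theorem inv_mul' {m : ℕ} (A : GL (Fin m) F) : (A⁻¹).1 * A.1 = 1 := by
  rw [← Units.val_mul, inv_mul_cancel, Units.val_one]

theorem mul_inv' {m : ℕ} (A : GL (Fin m) F) : A.1 * (A⁻¹).1 = 1 := by
  rw [← Units.val_mul, mul_inv_cancel, Units.val_one]

theorem hyp_dot {m : ℕ} (A : GL (Fin m) F) (x y : Fin m → F) :
    (A.1 *ᵥ x) ⬝ᵥ ((A⁻¹).1ᵀ *ᵥ y) = x ⬝ᵥ y := by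
  rw [mulVec_transpose, dotProduct_comm, ← dotProduct_mulVec, mulVec_mulVec, inv_mul', one_mulVec, dotProduct_comm]

theorem hyp_mulVec {m : ℕ} (A : GL (Fin m) F) (v : Fin m ⊕ Fin m → F) :
    hyp m F A *ᵥ v = Sum.elim (A.1 *ᵥ fun i => v (.inl i)) ((A⁻¹).1ᵀ *ᵥ fun i => v (.inr i)) := by
  change fromBlocks A.1 0 0 (A⁻¹).1ᵀ *ᵥ v = _
  rw [fromBlocks_mulVec]
  simp only [zero_mulVec, add_zero, zero_add]
  rfl

theorem quad_hyp {m : ℕ} (A : GL (Fin m) F) (v : Fin m ⊕ Fin m → F) :
    quadFormPlus m F (hyp m F A *ᵥ v) = quadFormPlus m F v := by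
  rw [hyp_mulVec]
  exact hyp_dot A (fun i => v (.inl i)) (fun i => v (.inr i))

/-- into `Sp` -/
def hypSp (m : ℕ) (F : Type*) [Field F] : GL (Fin m) F →* symplecticGroup (Fin m) F where
  toFun A := ⟨hyp m F A, by
    change fromBlocks A.1 0 0 (A⁻¹).1ᵀ ∈ _
    rw [SymplecticGroup.fromBlocks_mem_iff]
    refine ⟨by simp, by simp, ?_⟩
    rw [← transpose_mul, inv_mul', transpose_one, transpose_zero, Matrix.zero_mul, sub_zero]⟩
  map_one' := Subtype.ext (map_one (hyp m F))
  map_mul' A B := Subtype.ext (map_mul (hyp m F) A B)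

/-- a homomorphism to matrices preserving `Q` -/
def toIso {κ : Type} [Fintype κ] [DecidableEq κ] {X : Type*} [Group X] (Q : (κ → F) → F) (θ : X →* Matrix κ κ F)
    (hQ : ∀ A v, Q (θ A *ᵥ v) = Q v) : X →* isometryGroup F Q where
  toFun A := ⟨θ.toHomUnits A, fun u _ => hQ A u⟩
  map_one' := Subtype.ext (map_one θ.toHomUnits)
  map_mul' A B := Subtype.ext (map_mul θ.toHomUnits A B)

theorem toIso_injective {κ : Type} [Fintype κ] [DecidableEq κ] {X : Type*} [Group X] (Q : (κ → F) → F)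
    (θ : X →* Matrix κ κ F) (hθ : Function.Injective θ) (hQ : ∀ A v, Q (θ A *ᵥ v) = Q v) :
    Function.Injective (toIso Q θ hQ) := fun _ _ h => hθ (congrArg (fun x => (x.1 : Matrix κ κ F)) h)

end hyp

section symp

variable {p : ℕ} [hp : Fact p.Prime] {F : Type*} [Field F] [Fintype F]

theorem not_dvd_prod {n : ℕ} {g : ℕ → ℕ} (h : ∀ i, ¬ p ∣ g i) : ¬ p ∣ ∏ i ∈ Finset.range n, g i := by
  intro hd
  obtain ⟨i, -, hi⟩ := (hp.out.prime.dvd_finsetProd_iff _).1 hd
  exact h i hi

theorem lcm_two_odd {e : ℕ} (he : Odd e) : Nat.lcm 2 e = 2 * e :=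
  Nat.Coprime.lcm_eq_mul he.coprime_two_left

theorem lcm_two_even {e : ℕ} (he : Even e) : Nat.lcm 2 e = e := Nat.lcm_eq_right he.two_dvd

/-- the symplectic groups, weight `< p ^ 2` -/
theorem dlLe_sp (hp2 : p ≠ 2) (hpF : ¬ p ∣ Fintype.card F) {m : ℕ}
    (hw : 2 * m / Nat.lcm 2 (orderOf (Fintype.card F : ZMod p)) < p ^ 2) :
    DlLe p 2 (symplecticGroup (Fin m) F) := by
  have hfin : Finite (symplecticGroup (Fin m) F) := Subtype.finite
  rcases Nat.even_or_odd (orderOf (Fintype.card F : ZMod p)) with he | he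
  · rw [lcm_two_even he] at hw
    refine dlLe_mat (ι := Fin m ⊕ Fin m) hpF ?_ (symplecticGroup (Fin m) F).subtype Subtype.val_injective
    rw [Fintype.card_sum, Fintype.card_fin]
    have : m + m = 2 * m := by ring
    rwa [this]
  · rw [lcm_two_odd he, Nat.mul_div_mul_left _ _ two_pos] at hw
    refine dlLe_card (hypSp m F) (fun A B h => hyp_injective m (congrArg Subtype.val h))
      (c := Fintype.card F ^ (m ^ 2) * ∏ i ∈ Finset.range m, (Fintype.card F ^ (i + 1) + 1)) ?_ ?_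
      (dlLe_gl hpF (by rw [Fintype.card_fin]; exact hw))
    · rw [hp.out.dvd_mul]
      rintro (h | h)
      · exact hpF (hp.out.dvd_of_dvd_pow h)
      · exact not_dvd_prod (fun i => not_dvd_add_one hp2 he (i + 1)) h
    · rw [Cfsg.Agent.S0245.result rfl m]
      have h1 : ∏ i ∈ Finset.range m, (Fintype.card F ^ (2 * (i + 1)) - 1) =
          (∏ i ∈ Finset.range m, (Fintype.card F ^ (i + 1) - 1)) * ∏ i ∈ Finset.range m, (Fintype.card F ^ (i + 1) + 1) := by
        rw [← Finset.prod_mul_distrib]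
        exact Finset.prod_congr rfl fun i _ => sq_sub _ _
      rw [h1, mul_left_comm]
      exact mul_dvd_mul (card_gl_dvd m) dvd_rfl

theorem dlLe_psp (hp2 : p ≠ 2) (hpF : ¬ p ∣ Fintype.card F) {m : ℕ}
    (hw : 2 * m / Nat.lcm 2 (orderOf (Fintype.card F : ZMod p)) < p ^ 2) : DlLe p 2 (PSp m F) := by
  have hfin : Finite (symplecticGroup (Fin m) F) := Subtype.finite
  exact dlLe_surj (QuotientGroup.mk' _) (QuotientGroup.mk'_surjective _) (dlLe_sp hp2 hpF hw)

end symp

section orth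

variable {p : ℕ} [hp : Fact p.Prime] {F : Type*} [Field F] [Fintype F]

theorem dlLe_pomega {κ : Type} [Fintype κ] [DecidableEq κ] {Q : (κ → F) → F} (h : DlLe p 2 (isometryGroup F Q)) :
    DlLe p 2 (POmega F Q) := by
  have hfin : Finite (isometryGroup F Q) := inferInstance
  exact dlLe_surj (QuotientGroup.mk' _) (QuotientGroup.mk'_surjective _)
    (dlLe_inj (Omega F Q).subtype (Subgroup.subtype_injective _) h)

theorem dlLe_isoMat {κ : Type} [Fintype κ] [DecidableEq κ] {Q : (κ → F) → F} (hpF : ¬ p ∣ Fintype.card F)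
    (hw : Fintype.card κ / orderOf (Fintype.card F : ZMod p) < p ^ 2) : DlLe p 2 (isometryGroup F Q) :=
  dlLe_inj (isometryGroup F Q).subtype (Subgroup.subtype_injective _) (dlLe_gl hpF hw)

theorem prod_sq (q m : ℕ) : ∏ i ∈ Finset.range m, (q ^ (2 * (i + 1)) - 1) =
    (∏ i ∈ Finset.range m, (q ^ (i + 1) - 1)) * ∏ i ∈ Finset.range m, (q ^ (i + 1) + 1) := by
  rw [← Finset.prod_mul_distrib]
  exact Finset.prod_congr rfl fun i _ => sq_sub _ _

theorem not_dvd_two (hp2 : p ≠ 2) : ¬ p ∣ 2 := fun h => hp2 ((Nat.prime_dvd_prime_iff_eq hp.out Nat.prime_two).1 h)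

/-- odd dimension -/
theorem dlLe_odd (hp2 : p ≠ 2) (hpF : ¬ p ∣ Fintype.card F) (hodd : Odd (Fintype.card F)) {m : ℕ}
    (hw : 2 * m / Nat.lcm 2 (orderOf (Fintype.card F : ZMod p)) < p ^ 2) :
    DlLe p 2 (isometryGroup F (quadFormOdd m F)) := by
  have hfin : Finite (isometryGroup F (quadFormOdd m F)) := inferInstance
  rcases Nat.even_or_odd (orderOf (Fintype.card F : ZMod p)) with he | he
  · rw [lcm_two_even he] at hw
    apply dlLe_isoMat hpF
    rw [Fintype.card_sum, Fintype.card_sum, Fintype.card_fin, Fintype.card_unit]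
    have h1 := ord_pos hpF
    have h2 : (1 + (m + m)) / orderOf (Fintype.card F : ZMod p) = 2 * m / orderOf (Fintype.card F : ZMod p) := by
      obtain ⟨k, hk⟩ := he.two_dvd
      rw [hk, ← Nat.div_div_eq_div_mul, ← Nat.div_div_eq_div_mul]
      congr 1
      omega
    rwa [h2]
  · rw [lcm_two_odd he, Nat.mul_div_mul_left _ _ two_pos] at hw
    let θ : GL (Fin m) F →* Matrix (Unit ⊕ (Fin m ⊕ Fin m)) (Unit ⊕ (Fin m ⊕ Fin m)) F :=
      { toFun := fun A => fromBlocks 1 0 0 (hyp m F A)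
        map_one' := by rw [map_one, fromBlocks_one]
        map_mul' := fun A B => by rw [map_mul, fromBlocks_multiply]; simp }
    have hθ : Function.Injective θ := fun a b h => hyp_injective m (fromBlocks_inj.1 h).2.2.2
    have hQ : ∀ A v, quadFormOdd m F (θ A *ᵥ v) = quadFormOdd m F v := by
      intro A v
      have h1 := quad_hyp A (fun i => v (.inr i))
      have h2 : θ A *ᵥ v = Sum.elim (fun i => v (.inl i)) (hyp m F A *ᵥ fun i => v (.inr i)) := by
        change fromBlocks 1 0 0 (hyp m F A) *ᵥ v = _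
        rw [fromBlocks_mulVec]
        simp only [zero_mulVec, add_zero, zero_add, one_mulVec]
        rfl
      rw [h2]
      change v (.inl ()) ^ 2 + quadFormPlus m F (hyp m F A *ᵥ fun i => v (.inr i)) = _
      rw [h1]
      rfl
    refine dlLe_card (toIso _ θ hQ) (toIso_injective _ θ hθ hQ)
      (c := 2 * Fintype.card F ^ (m ^ 2) * ∏ i ∈ Finset.range m, (Fintype.card F ^ (i + 1) + 1)) ?_ ?_
      (dlLe_gl hpF (by rw [Fintype.card_fin]; exact hw))
    · rw [hp.out.dvd_mul, hp.out.dvd_mul]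
      rintro ((h | h) | h)
      · exact not_dvd_two hp2 h
      · exact hpF (hp.out.dvd_of_dvd_pow h)
      · exact not_dvd_prod (fun i => not_dvd_add_one hp2 he (i + 1)) h
    · rw [Cfsg.Agent.S0286.result rfl hodd m, prod_sq, mul_left_comm]
      exact mul_dvd_mul (card_gl_dvd m) dvd_rfl

/-- plus type, `e` odd -/
theorem dlLe_plus_odd (hp2 : p ≠ 2) (hpF : ¬ p ∣ Fintype.card F) {m : ℕ} (hm : 1 ≤ m)
    (he : Odd (orderOf (Fintype.card F : ZMod p))) (hw : m / orderOf (Fintype.card F : ZMod p) < p ^ 2) :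
    DlLe p 2 (isometryGroup F (quadFormPlus m F)) := by
  have hfin : Finite (isometryGroup F (quadFormPlus m F)) := inferInstance
  refine dlLe_card (toIso _ (hyp m F) quad_hyp) (toIso_injective _ _ (hyp_injective m) quad_hyp)
    (c := 2 * Fintype.card F ^ (m * (m - 1)) * ∏ i ∈ Finset.range (m - 1), (Fintype.card F ^ (i + 1) + 1)) ?_ ?_
    (dlLe_gl hpF (by rw [Fintype.card_fin]; exact hw))
  · rw [hp.out.dvd_mul, hp.out.dvd_mul]
    rintro ((h | h) | h)
    · exact not_dvd_two hp2 h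
    · exact hpF (hp.out.dvd_of_dvd_pow h)
    · exact not_dvd_prod (fun i => not_dvd_add_one hp2 he (i + 1)) h
  · rw [Cfsg.Agent.S0287.result rfl m hm, prod_sq]
    have h1 := card_gl_dvd (F := F) m
    obtain ⟨k, rfl⟩ : ∃ k, m = k + 1 := ⟨m - 1, by omega⟩
    rw [Finset.prod_range_succ] at h1
    rw [Nat.add_sub_cancel]
    obtain ⟨c, hc⟩ := h1
    rw [hc]
    refine ⟨c, ?_⟩
    ring

/-- minus type -/
theorem dlLe_minus (hp2 : p ≠ 2) (hpF : ¬ p ∣ Fintype.card F) {m : ℕ} (hm : 1 ≤ m) (a b : F)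
    (hab : ∀ z₁ z₂ : F, z₁ ^ 2 + a * z₁ * z₂ + b * z₂ ^ 2 = 0 → z₁ = 0 ∧ z₂ = 0)
    (hw1 : Odd (orderOf (Fintype.card F : ZMod p)) → (m - 1) / orderOf (Fintype.card F : ZMod p) < p ^ 2)
    (hw2 : Even (orderOf (Fintype.card F : ZMod p)) → 2 * m / orderOf (Fintype.card F : ZMod p) < p ^ 2) :
    DlLe p 2 (isometryGroup F (quadFormMinus (m - 1) F a b)) := by
  have hfin : Finite (isometryGroup F (quadFormMinus (m - 1) F a b)) := inferInstance
  rcases Nat.even_or_odd (orderOf (Fintype.card F : ZMod p)) with he | he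
  · apply dlLe_isoMat hpF
    rw [Fintype.card_sum, Fintype.card_sum, Fintype.card_fin, Fintype.card_fin]
    have h1 : m - 1 + (m - 1) + 2 = 2 * m := by omega
    rw [h1]
    exact hw2 he
  · let θ : GL (Fin (m - 1)) F →* Matrix ((Fin (m - 1) ⊕ Fin (m - 1)) ⊕ Fin 2) ((Fin (m - 1) ⊕ Fin (m - 1)) ⊕ Fin 2) F :=
      { toFun := fun A => fromBlocks (hyp (m - 1) F A) 0 0 1
        map_one' := by rw [map_one, fromBlocks_one]
        map_mul' := fun A B => by rw [map_mul, fromBlocks_multiply]; simp }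
    have hθ : Function.Injective θ := fun a b h => hyp_injective (m - 1) (fromBlocks_inj.1 h).1
    have hQ : ∀ A v, quadFormMinus (m - 1) F a b (θ A *ᵥ v) = quadFormMinus (m - 1) F a b v := by
      intro A v
      have h1 := quad_hyp A (fun i => v (.inl i))
      have h2 : θ A *ᵥ v = Sum.elim (hyp (m - 1) F A *ᵥ fun i => v (.inl i)) (fun i => v (.inr i)) := by
        change fromBlocks (hyp (m - 1) F A) 0 0 1 *ᵥ v = _
        rw [fromBlocks_mulVec]
        simp only [zero_mulVec, add_zero, zero_add, one_mulVec]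
        rfl
      rw [h2]
      change quadFormPlus (m - 1) F (hyp (m - 1) F A *ᵥ fun i => v (.inl i)) + _ = _
      rw [h1]
      rfl
    refine dlLe_card (toIso _ θ hQ) (toIso_injective _ θ hθ hQ)
      (c := 2 * Fintype.card F ^ (m * (m - 1)) * (Fintype.card F ^ m + 1) *
        ∏ i ∈ Finset.range (m - 1), (Fintype.card F ^ (i + 1) + 1)) ?_ ?_
      (dlLe_gl hpF (by rw [Fintype.card_fin]; exact hw1 he))
    · rw [hp.out.dvd_mul, hp.out.dvd_mul, hp.out.dvd_mul]
      rintro (((h | h) | h) | h)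
      · exact not_dvd_two hp2 h
      · exact hpF (hp.out.dvd_of_dvd_pow h)
      · exact not_dvd_add_one hp2 he m h
      · exact not_dvd_prod (fun i => not_dvd_add_one hp2 he (i + 1)) h
    · rw [Cfsg.Agent.S0288.result rfl m hm a b hab, prod_sq, mul_left_comm]
      exact mul_dvd_mul (card_gl_dvd (m - 1)) dvd_rfl

end orth

section fixed

open Module

variable {p : ℕ} [hp : Fact p.Prime] {F : Type*} [Field F] [Fintype F]

/-- a `p`-group with a fixed vector in dimension `≤ e p ^ 2` -/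
theorem two_of_fixed (hpF : ¬ p ∣ Fintype.card F) {P : Type*} [Group P] [Finite P] (hP : IsPGroup p P)
    {V : Type*} [AddCommGroup V] [Module F V] [FiniteDimensional F V] (ρ : Representation F P V)
    (hn : (finrank F V - 1) / orderOf (Fintype.card F : ZMod p) < p ^ 2) {v₀ : V} (h0 : v₀ ≠ 0)
    (hv₀ : ∀ g, ρ g v₀ = v₀) {g : P} (hg : g ∈ derivedSeries P 2) (v : V) : ρ g v = v := by
  have hc : (Nat.card P : F) ≠ 0 := by
    obtain ⟨m, hm⟩ := IsPGroup.iff_card.mp hP
    rw [hm, Nat.cast_pow]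
    exact pow_ne_zero _ (natCast_ne hpF)
  have : NeZero (Nat.card P : F) := ⟨hc⟩
  have hss : ρ.IsSemisimpleRepresentation := inferInstance
  let σ : Subrepresentation ρ := ⟨Submodule.span F {v₀}, by
    intro g x hx
    obtain ⟨c, rfl⟩ := Submodule.mem_span_singleton.1 hx
    change ρ g (c • v₀) ∈ _
    rw [map_smul, hv₀]
    exact Submodule.mem_span_singleton.2 ⟨c, rfl⟩⟩
  obtain ⟨τ, hτ⟩ := hss.exists_isCompl σ
  have hcompl : IsCompl σ.toSubmodule τ.toSubmodule := by
    constructor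
    · rw [disjoint_iff]
      exact congrArg Subrepresentation.toSubmodule hτ.1.eq_bot
    · rw [codisjoint_iff]
      exact congrArg Subrepresentation.toSubmodule hτ.2.eq_top
  have hdim := Submodule.finrank_add_eq_of_isCompl hcompl
  have hσ : finrank F σ.toSubmodule = 1 := finrank_span_singleton h0
  have hτd : finrank F τ.toSubmodule = finrank F V - 1 := by omega
  have h1 : g ∈ derivedSeries P (Nat.log p (finrank F τ.toSubmodule / orderOf (Fintype.card F : ZMod p)) + 1) := by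
    refine derivedSeries_antitone P ?_ hg
    rw [hτd]
    have h2 := Nat.log_lt_of_lt_pow' (b := p) (x := 2) (by norm_num) hn
    omega
  obtain ⟨a, ha, b, hb, rfl⟩ := Submodule.mem_sup.mp
    (show v ∈ σ.toSubmodule ⊔ τ.toSubmodule by rw [hcompl.2.eq_top]; trivial)
  obtain ⟨c, rfl⟩ := Submodule.mem_span_singleton.1 ha
  have h3 := Cfsg.Agent.H755.Dl.rep_ne_ord (natCast_ne hpF) (ord_pos hpF)
    (fun k hk h => ord_le hpF hk (by rwa [Nat.card_eq_fintype_card] at h)) _ hP τ.toRepresentation rfl g h1 ⟨b, hb⟩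
  have h4 : ρ g b = b := congrArg Subtype.val h3
  rw [map_add, map_smul, hv₀, h4]

/-- plus type, `e` even, `2 m = e p ^ 2` -/
theorem dlLe_plus_bd (hp2 : p ≠ 2) (hpF : ¬ p ∣ Fintype.card F) {m : ℕ} (hm : 1 ≤ m)
    (he : Even (orderOf (Fintype.card F : ZMod p))) (hw : 2 * m = orderOf (Fintype.card F : ZMod p) * p ^ 2) :
    DlLe p 2 (isometryGroup F (quadFormPlus m F)) := by
  classical
  intro P
  let X := {v : Fin m ⊕ Fin m → F // quadFormPlus m F v = 0}
  let ρ : Representation F (P : Subgroup (isometryGroup F (quadFormPlus m F))) (Fin m ⊕ Fin m → F) :=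
    ((Matrix.toLinAlgEquiv' : Matrix (Fin m ⊕ Fin m) (Fin m ⊕ Fin m) F ≃ₐ[F] _) :
      Matrix (Fin m ⊕ Fin m) (Fin m ⊕ Fin m) F →* _).comp
    ((Units.coeHom _).comp ((isometryGroup F (quadFormPlus m F)).subtype.comp (Subgroup.subtype _)))
  have hρQ : ∀ g v, quadFormPlus m F (ρ g v) = quadFormPlus m F v := fun g v => g.1.2 v v
  let _ : MulAction (P : Subgroup (isometryGroup F (quadFormPlus m F))) X :=
    { smul := fun g v => ⟨ρ g v.1, (hρQ g v.1).trans v.2⟩
      one_smul := fun v => Subtype.ext (by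
        change ρ 1 v.1 = v.1
        rw [map_one]; rfl)
      mul_smul := fun g h v => Subtype.ext (by
        change ρ (g * h) v.1 = ρ g (ρ h v.1)
        rw [map_mul]; rfl) }
  have h1 := P.isPGroup'.card_modEq_card_fixedPoints X
  have hq := cast_ne hpF
  have hexists : ∃ v₀ : Fin m ⊕ Fin m → F, v₀ ≠ 0 ∧ ∀ g, ρ g v₀ = v₀ := by
    by_contra hcon
    push Not at hcon
    have h2 : Nat.card (MulAction.fixedPoints (P : Subgroup (isometryGroup F (quadFormPlus m F))) X) = 1 := by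
      rw [Nat.card_eq_one_iff_unique]
      refine ⟨⟨fun a b => ?_⟩, ⟨⟨0, by simp [quadFormPlus]⟩, fun g => Subtype.ext (map_zero (ρ g))⟩⟩
      have h3 : ∀ a : MulAction.fixedPoints (P : Subgroup (isometryGroup F (quadFormPlus m F))) X, a.1.1 = 0 := by
        intro a
        by_contra hne
        obtain ⟨g, hg⟩ := hcon a.1.1 hne
        exact hg (congrArg Subtype.val (a.2 g))
      exact Subtype.ext (Subtype.ext ((h3 a).trans (h3 b).symm))
    rw [h2, Cfsg.Agent.S0289.result rfl m hm] at h1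
    have hle : Fintype.card F ^ (m - 1) ≤ Fintype.card F ^ m := Nat.pow_le_pow_right Fintype.card_pos (by omega)
    have h3 := (ZMod.natCast_eq_natCast_iff _ _ _).2 h1
    rw [Nat.cast_sub (hle.trans (Nat.le_add_left _ _))] at h3
    push_cast at h3
    set x : ZMod p := (Fintype.card F : ZMod p) with hx
    have hop : 0 < orderOf x := ord_pos hpF
    -- `x ^ m = - 1`
    obtain ⟨k, hk⟩ := he.two_dvd
    have hxk : x ^ k = -1 := by
      have h4 : x ^ k * x ^ k = 1 := by
        rw [← pow_add, ← two_mul, ← hk, pow_orderOf_eq_one]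
      rcases mul_self_eq_one_iff.1 h4 with h5 | h5
      · exfalso
        have h6 := Nat.le_of_dvd (by omega) (orderOf_dvd_of_pow_eq_one h5)
        omega
      · exact h5
    have hmk : m = k * p ^ 2 := by
      rw [hk, mul_assoc] at hw
      exact Nat.eq_of_mul_eq_mul_left two_pos hw
    have hpodd : Odd (p ^ 2) := (hp.out.odd_of_ne_two hp2).pow
    have hxm : x ^ m = -1 := by rw [hmk, pow_mul, hxk, hpodd.neg_one_pow]
    have h5 : x ^ (2 * m - 1) = x ^ m * x ^ (m - 1) := by rw [← pow_add]; congr 1; omega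
    rw [h5, hxm] at h3
    have h6 : (2 : ZMod p) * (x ^ (m - 1) + 1) = 0 := by linear_combination -h3
    have hlt : Fact (2 < p) := ⟨by have := hp.out.two_le; omega⟩
    have h20 : (2 : ZMod p) ≠ 0 := by
      intro h
      apply ZMod.neg_one_ne_one (n := p)
      linear_combination -h
    have h7 : x ^ (m - 1) = -1 := eq_neg_of_add_eq_zero_left ((mul_eq_zero.1 h6).resolve_left h20)
    have h8 : x ^ m = x ^ (m - 1) * x := by
      rw [← pow_succ]
      congr 1
      omega
    rw [hxm, h7] at h8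
    have h9 : x = 1 := by linear_combination h8
    rw [h9, orderOf_one] at hk
    omega
  obtain ⟨v₀, h0, hv₀⟩ := hexists
  rw [eq_bot_iff]
  intro g hg
  rw [Subgroup.mem_bot]
  have h2 : ∀ v, ρ g v = v := by
    refine two_of_fixed hpF P.isPGroup' ρ ?_ h0 hv₀ hg
    rw [finrank_pi, Fintype.card_sum, Fintype.card_fin]
    have h3 := ord_pos hpF
    rw [Nat.div_lt_iff_lt_mul h3]
    have h4 : m + m - 1 < orderOf (Fintype.card F : ZMod p) * p ^ 2 := by omega
    rwa [mul_comm]
  apply Subtype.ext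
  apply Subtype.ext
  apply Units.ext
  have h3 : Matrix.toLinAlgEquiv' (((g : isometryGroup F (quadFormPlus m F)) : GL (Fin m ⊕ Fin m) F) :
    Matrix (Fin m ⊕ Fin m) (Fin m ⊕ Fin m) F) = 1 := LinearMap.ext h2
  exact Matrix.toLinAlgEquiv'.injective (h3.trans (map_one _).symm)

end fixed

end Cfsg.Agent.H510.BD
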